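import Cfsg.Agent.H2.PP.TI
import Cfsg.Agent.H34.PDeg2
import Cfsg.Agent.H14.SubField

/-! the degree pattern of PSL(2,q) (helper2) -/

set_option autoImplicit false
set_option linter.unusedSectionVars false

namespace Cfsg.Agent.H2.PP

open Cfsg Cfsg.Agent.CharBase Cfsg.Agent.H75

universe u v

theorem deg_eq_charDegree {G : Type u} [Group G] [Finite G] {χ : IrrCharacter G} {d : ℕ}
    (h : charDegree (χ : G → ℂ) = d) : deg χ = d := by rw [← charDegree_eq_deg, h]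

theorem cnt_of_mem_charDegrees {G : Type u} [Group G] [Finite G] {d : ℕ} (h : d ∈ charDegrees G) : cnt G d ≠ 0 := by
  obtain ⟨χ, hχ⟩ := h
  have h1 := cnt_pos_of χ
  rwa [deg_eq_charDegree hχ] at h1

/-- equality of the counts, from the hypothesis of the row -/
theorem cnt_eq_of {G : Type u} [Group G] [Finite G] {H : Type v} [Group H] [Finite H]
    (h : ∀ d : ℕ, Nat.card {χ : Cfsg.IrrCharacter G // (χ : G → ℂ) 1 = (d : ℂ)} =
      Nat.card {χ : Cfsg.IrrCharacter H // (χ : H → ℂ) 1 = (d : ℂ)}) (d : ℕ) : cnt G d = cnt H d := by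
  have h1 : cnt G d = Nat.card {χ : Cfsg.IrrCharacter G // (χ : G → ℂ) 1 = (d : ℂ)} := by
    apply Nat.card_congr
    apply Equiv.subtypeEquivRight
    intro χ
    rw [deg_spec]; norm_cast
  have h2 : cnt H d = Nat.card {χ : Cfsg.IrrCharacter H // (χ : H → ℂ) 1 = (d : ℂ)} := by
    apply Nat.card_congr
    apply Equiv.subtypeEquivRight
    intro χ
    rw [deg_spec]; norm_cast
  rw [h1, h2, h d]

theorem Pat.transfer {G : Type u} [Group G] [Finite G] {H : Type v} [Group H] [Finite H] {k : ℕ} (h : Pat H k)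
    (hc : ∀ d, cnt G d = cnt H d) : Pat G k where
  one := by rw [hc, h.one]
  st := by rw [hc, h.st]
  six := by
    intro χ
    have h1 := cnt_pos_of χ
    rw [hc] at h1
    obtain ⟨ψ, hψ⟩ := exists_of_cnt h1
    rw [← hψ]
    exact h.six ψ
  half := by rw [hc]; exact h.half
  card := by rw [card_eq_of_cnt hc, h.card]
  k3 := h.k3
  k4 := h.k4

section
variable {F : Type v} [Field F] [Fintype F] [DecidableEq F] {k : ℕ}

theorem cnt_sl (D : H34.Deg.OddData F k) (d : ℕ) : cnt (Matrix.SpecialLinearGroup (Fin 2) F) d =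
    Nat.card {χ : IrrCharacter (Matrix.SpecialLinearGroup (Fin 2) F) // D.a χ + (D.b χ + D.c χ) * k = d} := by
  apply Nat.card_congr
  apply Equiv.subtypeEquivRight
  intro χ
  rw [← D.deg_eq_iff, deg_spec]; norm_cast

theorem deg_sl (D : H34.Deg.OddData F k) (χ : IrrCharacter (Matrix.SpecialLinearGroup (Fin 2) F)) :
    deg χ = D.a χ + (D.b χ + D.c χ) * k := by
  have h1 := D.deg χ
  rw [deg_spec] at h1
  exact_mod_cast h1

theorem pat_psl (D : H34.Deg.OddData F k) (hk4 : 4 ∣ k) : Pat (Matrix.ProjectiveSpecialLinearGroup (Fin 2) F) k := by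
  have hk3 : 4 ≤ k := by
    obtain ⟨l, hl⟩ := hk4
    have := D.k_pos
    omega
  have hc1 : cnt (Matrix.SpecialLinearGroup (Fin 2) F) 1 = 1 := by
    rw [cnt_sl D]
    refine (Nat.card_congr ?_).trans D.n1
    apply Equiv.subtypeEquivRight
    intro χ
    constructor
    · intro h
      rcases D.six χ with ⟨h1, h2⟩ | ⟨h1, h2⟩ | ⟨h1, h2⟩ | ⟨h1, h2⟩ | ⟨h1, h2⟩ | ⟨h1, h2⟩ <;> rw [h1, h2] at h <;> omega
    · rintro ⟨h1, h2⟩
      rw [h1, h2, zero_mul, add_zero]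
  have hcq : cnt (Matrix.SpecialLinearGroup (Fin 2) F) (2 * k + 1) = 1 := by
    rw [cnt_sl D]
    refine (Nat.card_congr ?_).trans D.n2
    apply Equiv.subtypeEquivRight
    intro χ
    constructor
    · intro h
      rcases D.six χ with ⟨h1, h2⟩ | ⟨h1, h2⟩ | ⟨h1, h2⟩ | ⟨h1, h2⟩ | ⟨h1, h2⟩ | ⟨h1, h2⟩ <;> rw [h1, h2] at h <;> omega
    · rintro ⟨h1, h2⟩
      rw [h1, h2]; ring
  have hck : cnt (Matrix.SpecialLinearGroup (Fin 2) F) k = 2 := by
    rw [cnt_sl D]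
    refine (Nat.card_congr ?_).trans D.n6
    apply Equiv.subtypeEquivRight
    intro χ
    constructor
    · intro h
      rcases D.six χ with ⟨h1, h2⟩ | ⟨h1, h2⟩ | ⟨h1, h2⟩ | ⟨h1, h2⟩ | ⟨h1, h2⟩ | ⟨h1, h2⟩ <;> rw [h1, h2] at h <;> omega
    · rintro ⟨h1, h2⟩
      rw [h1, h2]; ring
  have hle : ∀ d, cnt (Matrix.ProjectiveSpecialLinearGroup (Fin 2) F) d ≤ cnt (Matrix.SpecialLinearGroup (Fin 2) F) d :=
    fun d => cnt_quot_le _ d
  have hq := (H34.Deg.graph_data_group (S := Matrix.ProjectiveSpecialLinearGroup (Fin 2) F) (Or.inl ⟨MulEquiv.refl _⟩)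
    (H34.Deg.graph_data_odd D (by omega))).2 _ (Or.inl rfl)
  have hq' := cnt_of_mem_charDegrees hq
  rw [D.hk] at hq'
  refine ⟨?_, ?_, ?_, ?_, ?_, hk3, hk4⟩
  · have h1 := hle 1
    have h2 := cnt_one_pos (G := Matrix.ProjectiveSpecialLinearGroup (Fin 2) F)
    omega
  · have h1 := hle (2 * k + 1)
    omega
  · intro χ
    have h1 := cnt_pos_of χ
    have h2 := hle (deg χ)
    obtain ⟨ψ, hψ⟩ := exists_of_cnt (G := Matrix.SpecialLinearGroup (Fin 2) F) (d := deg χ) (by omega)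
    rw [← hψ, deg_sl D]
    rcases D.six ψ with ⟨h1, h2⟩ | ⟨h1, h2⟩ | ⟨h1, h2⟩ | ⟨h1, h2⟩ | ⟨h1, h2⟩ | ⟨h1, h2⟩ <;> rw [h1, h2] <;> omega
  · have h1 := hle k
    omega
  · have h1 := Cfsg.Agent.H14.SubField.card_PSL2_odd (F := F) (by rw [D.hk]; exact ⟨k, rfl⟩)
    rw [D.hk] at h1
    have h2 : 2 * k + 1 - 1 = 2 * k := by omega
    rw [h2] at h1
    apply Nat.eq_of_mul_eq_mul_left (show 0 < 2 by norm_num)
    rw [h1]; ring

end

end Cfsg.Agent.H2.PP
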