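import Mathlib

/-! arithmetic for the degree pattern of PSL(2,p^2) (helper2) -/

set_option autoImplicit false

namespace Cfsg.Agent.H2.PP

theorem arith1 {k b c t a : ℕ} (hk : 3 ≤ k)
    (h : 1 + (2 * k + 1) ^ 2 + b * (k + 1) ^ 2 + c * (2 * (k + 1)) ^ 2 + a * k ^ 2 + t * (2 * k) ^ 2 =
      2 * k * (k + 1) * (2 * k + 1)) : b + 4 * c + 2 = 2 * k ∧ a + 4 * t = 2 * k := by
  zify at h hk ⊢
  set U : ℤ := b + 4 * c with hU
  set D : ℤ := a + 4 * t with hD
  have hU0 : 0 ≤ U := by positivity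
  have hD0 : 0 ≤ D := by positivity
  have e1 : (U - (2 * k - 2)) * ((k : ℤ) + 1) ^ 2 = (2 * k - D) * (k : ℤ) ^ 2 := by
    rw [hU, hD]; linear_combination h
  have hcop : IsCoprime ((k : ℤ) ^ 2) (((k : ℤ) + 1) ^ 2) := by
    apply IsCoprime.pow
    exact ⟨-1, 1, by ring⟩
  have hd : (k : ℤ) ^ 2 ∣ U - (2 * k - 2) := by
    apply hcop.dvd_of_dvd_mul_right
    rw [e1]; exact dvd_mul_left _ _
  obtain ⟨s, hs⟩ := hd
  have hk2 : ((k : ℤ) ^ 2) ≠ 0 := by positivity
  have e2 : 2 * k - D = ((k : ℤ) + 1) ^ 2 * s := by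
    apply mul_right_cancel₀ hk2
    rw [← e1, hs]; ring
  have hs0 : s ≤ 0 := by
    by_contra hcon
    push Not at hcon
    have : ((k : ℤ) + 1) ^ 2 * 1 ≤ ((k : ℤ) + 1) ^ 2 * s := mul_le_mul_of_nonneg_left (by omega) (by positivity)
    nlinarith
  have hs1 : 0 ≤ s := by
    by_contra hcon
    push Not at hcon
    have : (k : ℤ) ^ 2 * s ≤ (k : ℤ) ^ 2 * (-1) := mul_le_mul_of_nonneg_left (by omega) (by positivity)
    nlinarith
  have hs2 : s = 0 := le_antisymm hs0 hs1
  rw [hs2, mul_zero] at hs e2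
  constructor <;> omega

theorem arith2 {k a b c t n : ℕ} (hk : 3 ≤ k) (h4 : 4 ∣ k) (ha : a ≤ 1) (hu : b + 4 * c + 2 ≤ 2 * k) (ht : 4 * t ≤ 2 * k)
    (hn : n = 1 + a * (2 * k + 1) ^ 2 + b * (k + 1) ^ 2 + c * (2 * (k + 1)) ^ 2 + t * (2 * k) ^ 2) (hn1 : n ≠ 1)
    (da : a ≠ 0 → 2 * k + 1 ∣ n) (du : b + 4 * c ≠ 0 → k + 1 ∣ n) (dt : t ≠ 0 → 2 * k ∣ n) :
    2 * k * (k + 1) * (2 * k + 1) ∣ n := by
  obtain ⟨l, rfl⟩ := h4
  set u := b + 4 * c with hu'
  have hn2 : n = 1 + a * (2 * (4 * l) + 1) ^ 2 + u * (4 * l + 1) ^ 2 + t * (2 * (4 * l)) ^ 2 := by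
    rw [hn, hu']; ring
  have e1 : n = (2 * (4 * l)) * (a * (2 * (4 * l) + 2) + u * (2 * l + 1) + t * (2 * (4 * l))) + (1 + a + u) := by
    rw [hn2]; ring
  have e2 : n + (4 * l + 1) * (t * 4) = (4 * l + 1) * (a * (4 * (4 * l)) + u * (4 * l + 1) + t * (4 * (4 * l))) + (1 + a + 4 * t) := by
    rw [hn2]; ring
  rcases Nat.eq_zero_or_pos u with hu0 | hu0
  · exfalso
    rcases Nat.eq_zero_or_pos t with ht0 | ht0
    · rcases Nat.eq_zero_or_pos a with ha0 | ha0
      · apply hn1; rw [hn2, hu0, ht0, ha0]; ring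
      · have h1 := da (by omega)
        have ha1 : a = 1 := by omega
        rw [hn2, hu0, ht0, ha1] at h1
        have h2 : 2 * (4 * l) + 1 ∣ 1 := by
          have h3 : 2 * (4 * l) + 1 ∣ 1 * (2 * (4 * l) + 1) ^ 2 := (dvd_pow_self _ two_ne_zero).mul_left _
          have h4 : 1 + 1 * (2 * (4 * l) + 1) ^ 2 + 0 * (4 * l + 1) ^ 2 + 0 * (2 * (4 * l)) ^ 2 =
            1 * (2 * (4 * l) + 1) ^ 2 + 1 := by ring
          rw [h4] at h1
          exact (Nat.dvd_add_right h3).1 h1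
        have := Nat.le_of_dvd one_pos h2
        omega
    · have h1 := dt (by omega)
      rw [e1] at h1
      have h2 := (Nat.dvd_add_right (dvd_mul_right _ _)).1 h1
      have := Nat.le_of_dvd (by omega) h2
      omega
  · have h1 := du (by omega)
    have h2 : 4 * l + 1 ∣ 1 + a + 4 * t := by
      have h3 : 4 * l + 1 ∣ n + (4 * l + 1) * (t * 4) := (Nat.dvd_add_right h1).2 (dvd_mul_right _ _)
      rw [e2] at h3
      exact (Nat.dvd_add_right (dvd_mul_right _ _)).1 h3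
    obtain ⟨j, hj⟩ := h2
    have hj2 : j ≤ 2 := by
      by_contra hcon
      have : (4 * l + 1) * 3 ≤ (4 * l + 1) * j := Nat.mul_le_mul_left _ (by omega)
      omega
    have hj0 : j ≠ 0 := by rintro rfl; omega
    rcases (show j = 1 ∨ j = 2 by omega) with rfl | rfl
    · exfalso
      have ha0 : a = 0 := by omega
      have ht0 : t ≠ 0 := by omega
      have h3 := dt ht0
      rw [e1] at h3
      have h4 := (Nat.dvd_add_right (dvd_mul_right _ _)).1 h3
      have := Nat.le_of_dvd (by omega) h4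
      omega
    · have ha1 : a = 1 := by omega
      have ht1 : t ≠ 0 := by omega
      have h3 := dt ht1
      have h4 := da (by omega)
      have c1 : Nat.Coprime (2 * (4 * l)) (4 * l + 1) := by
        rw [Nat.coprime_iff_gcd_eq_one]
        have h5 : Nat.gcd (2 * (4 * l)) (4 * l + 1) ∣ 2 := by
          have d1 := Nat.gcd_dvd_left (2 * (4 * l)) (4 * l + 1)
          have d2 := Nat.gcd_dvd_right (2 * (4 * l)) (4 * l + 1)
          have d3 : Nat.gcd (2 * (4 * l)) (4 * l + 1) ∣ 2 * (4 * l) + 2 := by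
            have : 2 * (4 * l) + 2 = 2 * (4 * l + 1) := by ring
            rw [this]; exact d2.mul_left 2
          exact (Nat.dvd_add_right d1).1 d3
        rcases (Nat.dvd_prime Nat.prime_two).1 h5 with h6 | h6
        · exact h6
        · exfalso
          have := Nat.gcd_dvd_right (2 * (4 * l)) (4 * l + 1)
          rw [h6] at this
          omega
      have c2 : Nat.Coprime (2 * (4 * l) * (4 * l + 1)) (2 * (4 * l) + 1) := by
        apply Nat.Coprime.mul_left
        · exact (Nat.coprime_self_add_right (m := 2 * (4 * l)) (n := 1)).2 (Nat.coprime_one_right _)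
        · have : 2 * (4 * l) + 1 = (4 * l + 1) + 4 * l := by ring
          rw [this, Nat.coprime_self_add_right]
          exact (Nat.coprime_self_add_left (m := 4 * l) (n := 1)).2 (Nat.coprime_one_left _)
      exact Nat.Coprime.mul_dvd_of_dvd_of_dvd c2 (Nat.Coprime.mul_dvd_of_dvd_of_dvd c1 h3 h1) h4

end Cfsg.Agent.H2.PP
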