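import Cfsg.Agent.H75.Inflate
import Cfsg.Agent.H2.PP.Num

/-! counting irreducible characters by degree; the degree pattern of PSL(2,p^2) forces simplicity (helper2) -/

set_option autoImplicit false
set_option linter.unusedSectionVars false

namespace Cfsg.Agent.H2.PP

open Cfsg Cfsg.Agent.CharBase Cfsg.Agent.H75

universe u v

/-- number of irreducible characters of degree `d` -/
noncomputable def cnt (G : Type u) [Group G] [Finite G] (d : ℕ) : ℕ := Nat.card {χ : IrrCharacter G // deg χ = d}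

section
variable {G : Type u} [Group G] [Finite G]

theorem cnt_pos_of (χ : IrrCharacter G) : cnt G (deg χ) ≠ 0 := by
  have : Nonempty {ψ : IrrCharacter G // deg ψ = deg χ} := ⟨⟨χ, rfl⟩⟩
  exact Nat.card_pos.ne'

theorem exists_of_cnt {d : ℕ} (h : cnt G d ≠ 0) : ∃ χ : IrrCharacter G, deg χ = d := by
  by_contra hcon
  push Not at hcon
  apply h
  have : IsEmpty {ψ : IrrCharacter G // deg ψ = d} := ⟨fun x => hcon x.1 x.2⟩
  exact Nat.card_of_isEmpty

theorem card_eq_sum (s : Finset ℕ) (hs : ∀ χ : IrrCharacter G, deg χ ∈ s) :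
    Nat.card G = ∑ d ∈ s, cnt G d * d ^ 2 := by
  classical
  have := Fintype.ofFinite (IrrCharacter G)
  rw [← sum_deg_sq (G := G), ← Finset.sum_fiberwise_of_maps_to (s := Finset.univ) (t := s) (g := fun χ => deg χ)
    (fun χ _ => hs χ)]
  refine Finset.sum_congr rfl fun d _ => ?_
  have h1 : ∑ χ ∈ Finset.univ.filter (fun χ : IrrCharacter G => deg χ = d), deg χ ^ 2 =
      ∑ χ ∈ Finset.univ.filter (fun χ : IrrCharacter G => deg χ = d), d ^ 2 :=
    Finset.sum_congr rfl fun χ hχ => by rw [(Finset.mem_filter.1 hχ).2]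
  rw [h1, Finset.sum_const, smul_eq_mul, cnt, Nat.card_eq_fintype_card, Fintype.card_subtype]

theorem card_eq_of_cnt {H : Type v} [Group H] [Finite H] (h : ∀ d, cnt G d = cnt H d) : Nat.card G = Nat.card H := by
  set m := max (Nat.card G) (Nat.card H) with hm
  have h1 : ∀ χ : IrrCharacter G, deg χ ∈ Finset.range (m + 1) := fun χ => by
    have := Nat.le_of_dvd Nat.card_pos (deg_dvd χ)
    rw [Finset.mem_range]
    have := le_max_left (Nat.card G) (Nat.card H)
    omega
  have h2 : ∀ χ : IrrCharacter H, deg χ ∈ Finset.range (m + 1) := fun χ => by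
    have := Nat.le_of_dvd Nat.card_pos (deg_dvd χ)
    rw [Finset.mem_range]
    have := le_max_right (Nat.card G) (Nat.card H)
    omega
  rw [card_eq_sum _ h1, card_eq_sum _ h2]
  exact Finset.sum_congr rfl fun d _ => by rw [h]

theorem cnt_one_pos : cnt G 1 ≠ 0 := by
  have h : deg (oneIrr G) = 1 := by
    have := deg_spec (oneIrr G)
    rw [oneIrr_apply] at this
    exact_mod_cast this.symm
  have := cnt_pos_of (oneIrr G)
  rwa [h] at this

theorem cnt_quot_le (N : Subgroup G) [N.Normal] (d : ℕ) : cnt (G ⧸ N) d ≤ cnt G d := by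
  let f : {χ : IrrCharacter (G ⧸ N) // deg χ = d} → {χ : IrrCharacter G // deg χ = d} := fun χ =>
    ⟨(inflateEquiv N χ.1).1, by
      have h1 := deg_spec (inflateEquiv N χ.1).1
      have h2 := deg_spec χ.1
      have h3 : ((inflateEquiv N χ.1).1 : G → ℂ) 1 = (χ.1 : G ⧸ N → ℂ) 1 := rfl
      rw [h1, h2] at h3
      rw [show deg (inflateEquiv N χ.1).1 = deg χ.1 by exact_mod_cast h3]
      exact χ.2⟩
  have hf : Function.Injective f := by
    intro x y hxy
    have h1 : (inflateEquiv N x.1).1 = (inflateEquiv N y.1).1 := congrArg (fun z => z.1) hxy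
    exact Subtype.ext ((inflateEquiv N).injective (Subtype.ext h1))
  exact Nat.card_le_card_of_injective f hf

end

/-- the degree pattern of `PSL(2,q)`, `q = 2k+1`, `4 ∣ k` -/
structure Pat (G : Type u) [Group G] [Finite G] (k : ℕ) : Prop where
  one : cnt G 1 = 1
  st : cnt G (2 * k + 1) = 1
  six : ∀ χ : IrrCharacter G, deg χ = 1 ∨ deg χ = 2 * k + 1 ∨ deg χ = k + 1 ∨ deg χ = 2 * (k + 1) ∨ deg χ = k ∨ deg χ = 2 * k
  half : cnt G k ≤ 2
  card : Nat.card G = 2 * k * (k + 1) * (2 * k + 1)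
  k3 : 4 ≤ k
  k4 : 4 ∣ k

section
variable {G : Type u} [Group G] [Finite G] {k : ℕ}

theorem sum_six (k3 : 3 ≤ k) {H : Type v} [Group H] [Finite H]
    (six : ∀ χ : IrrCharacter H, deg χ = 1 ∨ deg χ = 2 * k + 1 ∨ deg χ = k + 1 ∨ deg χ = 2 * (k + 1) ∨ deg χ = k ∨ deg χ = 2 * k) :
    Nat.card H = cnt H 1 + cnt H (2 * k + 1) * (2 * k + 1) ^ 2 + cnt H (k + 1) * (k + 1) ^ 2 +
      cnt H (2 * (k + 1)) * (2 * (k + 1)) ^ 2 + cnt H k * k ^ 2 + cnt H (2 * k) * (2 * k) ^ 2 := by
  rw [card_eq_sum (G := H) ({1, 2 * k + 1, k + 1, 2 * (k + 1), k, 2 * k} : Finset ℕ) (fun χ => by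
    simp only [Finset.mem_insert, Finset.mem_singleton]; exact six χ)]
  rw [Finset.sum_insert, Finset.sum_insert, Finset.sum_insert, Finset.sum_insert, Finset.sum_insert, Finset.sum_singleton]
  · ring
  all_goals simp only [Finset.mem_insert, Finset.mem_singleton, not_or]; omega

theorem Pat.arith (h : Pat G k) : cnt G k = 0 ∧ cnt G (k + 1) + 4 * cnt G (2 * (k + 1)) + 2 = 2 * k ∧ 4 * cnt G (2 * k) = 2 * k := by
  have h1 := sum_six (by have := h.k3; omega) h.six
  rw [h.one, h.st, h.card, one_mul] at h1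
  have h2 := arith1 (by have := h.k3; omega) h1.symm
  have h3 := h.half
  obtain ⟨l, hl⟩ := h.k4
  omega

theorem Pat.five (h : Pat G k) (χ : IrrCharacter G) :
    deg χ = 1 ∨ deg χ = 2 * k + 1 ∨ deg χ = k + 1 ∨ deg χ = 2 * (k + 1) ∨ deg χ = 2 * k := by
  rcases h.six χ with h1 | h1 | h1 | h1 | h1 | h1
  · exact Or.inl h1
  · exact Or.inr (Or.inl h1)
  · exact Or.inr (Or.inr (Or.inl h1))
  · exact Or.inr (Or.inr (Or.inr (Or.inl h1)))
  · exfalso
    have := cnt_pos_of χ
    rw [h1] at this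
    exact this h.arith.1
  · exact Or.inr (Or.inr (Or.inr (Or.inr h1)))

theorem Pat.normal (h : Pat G k) (N : Subgroup G) [hN : N.Normal] (hNt : N ≠ ⊤) : N = ⊥ := by
  have k3 := h.k3
  have hone : cnt (G ⧸ N) 1 = 1 := by
    have h1 := cnt_quot_le N 1
    have h2 := cnt_one_pos (G := G ⧸ N)
    rw [h.one] at h1
    omega
  have hex : ∀ d, cnt (G ⧸ N) d ≠ 0 → d ∣ Nat.card (G ⧸ N) := by
    intro d hd
    obtain ⟨χ, rfl⟩ := exists_of_cnt hd
    exact deg_dvd χ
  have six' : ∀ χ : IrrCharacter (G ⧸ N), deg χ = 1 ∨ deg χ = 2 * k + 1 ∨ deg χ = k + 1 ∨ deg χ = 2 * (k + 1) ∨ deg χ = k ∨ deg χ = 2 * k := by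
    intro χ
    have h1 := cnt_pos_of χ
    have h2 := cnt_quot_le N (deg χ)
    obtain ⟨ψ, hψ⟩ := exists_of_cnt (G := G) (d := deg χ) (by omega)
    rw [← hψ]
    exact h.six ψ
  have hsum := sum_six (by omega) six'
  have hk0 : cnt (G ⧸ N) k = 0 := by
    have h1 := cnt_quot_le N k
    rw [h.arith.1] at h1
    omega
  rw [hone, hk0] at hsum
  have c1 := cnt_quot_le N (2 * k + 1)
  have c2 := cnt_quot_le N (k + 1)
  have c3 := cnt_quot_le N (2 * (k + 1))
  have c4 := cnt_quot_le N (2 * k)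
  rw [h.st] at c1
  have har := h.arith
  have hn1 : Nat.card (G ⧸ N) ≠ 1 := by
    intro h1
    apply hNt
    have h2 : N.index = 1 := h1
    exact Subgroup.index_eq_one.1 h2
  have hdvd := arith2 (k := k) (a := cnt (G ⧸ N) (2 * k + 1)) (b := cnt (G ⧸ N) (k + 1)) (c := cnt (G ⧸ N) (2 * (k + 1)))
    (t := cnt (G ⧸ N) (2 * k)) (n := Nat.card (G ⧸ N)) (by omega) h.k4 c1 (by omega) (by omega) (by rw [hsum]; ring) hn1
    (fun h1 => hex _ h1) (fun h1 => by
      by_cases h2 : cnt (G ⧸ N) (k + 1) = 0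
      · exact (dvd_mul_left _ _).trans (hex (2 * (k + 1)) (by omega))
      · exact hex _ h2) (fun h1 => hex _ h1)
  rw [← h.card] at hdvd
  have h3 : Nat.card (G ⧸ N) * Nat.card N = Nat.card G := by
    rw [mul_comm]; exact (Subgroup.card_mul_index N)
  have h4 := Nat.le_of_dvd Nat.card_pos hdvd
  have h5 : Nat.card N = 1 := by
    have h6 : 0 < Nat.card N := Nat.card_pos
    have h7 : 0 < Nat.card (G ⧸ N) := Nat.card_pos
    nlinarith
  exact Subgroup.card_eq_one.1 h5

theorem Pat.simple (h : Pat G k) : IsSimpleGroup G := by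
  have k3 := h.k3
  haveI : Nontrivial G := by
    rw [← Finite.one_lt_card_iff_nontrivial, h.card]
    have h1 : 1 < 2 * k := by omega
    have h2 : 1 ≤ (k + 1) * (2 * k + 1) := Nat.mul_pos (by omega) (by omega)
    calc 1 < 2 * k := h1
      _ = 2 * k * 1 := (mul_one _).symm
      _ ≤ 2 * k * ((k + 1) * (2 * k + 1)) := Nat.mul_le_mul_left _ h2
      _ = 2 * k * (k + 1) * (2 * k + 1) := by ring
  refine ⟨fun N hN => ?_⟩
  by_cases h1 : N = ⊤
  · exact Or.inr h1
  · exact Or.inl (h.normal N h1)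

theorem Pat.not_prime (h : Pat G k) : ¬ (Nat.card G).Prime := by
  intro hp
  have k3 := h.k3
  rw [h.card] at hp
  have h1 : 2 * k ∣ 2 * k * (k + 1) * (2 * k + 1) := by rw [mul_assoc]; exact dvd_mul_right _ _
  rcases (Nat.dvd_prime hp).1 h1 with h2 | h2
  · omega
  · have h3 : 1 < (k + 1) * (2 * k + 1) := by
      calc 1 < k + 1 := by omega
        _ = (k + 1) * 1 := (mul_one _).symm
        _ ≤ (k + 1) * (2 * k + 1) := Nat.mul_le_mul_left _ (by omega)
    have h4 : 2 * k * 1 < 2 * k * ((k + 1) * (2 * k + 1)) := Nat.mul_lt_mul_of_pos_left h3 (by omega)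
    rw [mul_one, ← mul_assoc, ← h2] at h4
    exact lt_irrefl _ h4

theorem Pat.noncomm (h : Pat G k) : ¬ ∀ a b : G, a * b = b * a := by
  intro hc
  haveI := h.simple
  let _ : CommGroup G := { (inferInstance : Group G) with mul_comm := hc }
  exact h.not_prime IsSimpleGroup.prime_card

end

end Cfsg.Agent.H2.PP
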