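import Cfsg.Agent.H2.PP.Val
import Cfsg.Agent.H2.TIS
import Cfsg.Agent.ClassBase.RelHom

/-! the Sylow p-subgroups are TI and self-centralizing; identification (helper2) -/

set_option autoImplicit false
set_option linter.unusedSectionVars false

namespace Cfsg.Agent.H2.PP

open Cfsg Cfsg.Agent.CharBase Cfsg.Agent.H75
open scoped ComplexConjugate

universe u v

section
variable {G : Type u} [Group G] [Finite G] {k p : ℕ}

theorem Pat.van_p (h : Pat G k) (hp : p.Prime) (hpk : 2 * k + 1 = p ^ 2) {S : IrrCharacter G}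
    (hS : deg S = 2 * k + 1) {g : G} (hg : p ∣ orderOf g) : (S : G → ℂ) g = 0 := by
  have hpd : p ∣ 2 * k + 1 := by rw [hpk]; exact dvd_pow_self _ two_ne_zero
  refine van hp (A := 2 * k + 1) (B := 2 * k * (k + 1)) (by omega) (by rw [h.card]; ring) ?_ (by rw [hS]) hg
  intro hd
  rcases (Nat.Prime.dvd_mul hp).1 hd with h1 | h1
  · have h4 := (Nat.dvd_add_right h1).1 hpd
    exact hp.one_lt.ne' (Nat.dvd_one.1 h4)
  · have h2 : p ∣ 2 * (k + 1) := h1.mul_left 2
    have h3 : 2 * (k + 1) = (2 * k + 1) + 1 := by ring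
    rw [h3] at h2
    have h4 := (Nat.dvd_add_right hpd).1 h2
    exact hp.one_lt.ne' (Nat.dvd_one.1 h4)

theorem Pat.pm (h : Pat G k) (hp : p.Prime) (hp5 : 5 ≤ p) (hpk : 2 * k + 1 = p ^ 2) {S : IrrCharacter G}
    (hS : deg S = 2 * k + 1) {g : G} {r : ℕ} (hr : r.Prime) (hrp : r ≠ p) (hg : r ∣ orderOf g) :
    (S : G → ℂ) g = 1 ∨ (S : G → ℂ) g = -1 := by
  have h1 : r ∣ Nat.card G := hg.trans (orderOf_dvd_natCard g)
  rw [h.card, hpk] at h1
  rcases (Nat.Prime.dvd_mul hr).1 h1 with h2 | h2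
  · rcases (Nat.Prime.dvd_mul hr).1 h2 with h3 | h3
    · exact Or.inl (h.valT hp hp5 hpk hS hr h3 hg)
    · exact Or.inr (h.valE hS hr h3 hg)
  · exact absurd ((Nat.prime_dvd_prime_iff_eq hr hp).1 (hr.dvd_of_dvd_pow h2)) hrp

theorem Pat.not_both (h : Pat G k) (hp : p.Prime) (hp5 : 5 ≤ p) (hpk : 2 * k + 1 = p ^ 2) {g : G} {r : ℕ}
    (hr : r.Prime) (hrp : r ≠ p) (hg : r ∣ orderOf g) (hgp : p ∣ orderOf g) : False := by
  obtain ⟨S, hS⟩ := exists_of_cnt (G := G) (d := 2 * k + 1) (by rw [h.st]; exact one_ne_zero)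
  have h1 := h.van_p hp hpk hS hgp
  rcases h.pm hp hp5 hpk hS hr hrp hg with h2 | h2 <;> rw [h1] at h2 <;> norm_num at h2

theorem Pat.fact (h : Pat G k) (hp : p.Prime) (hpk : 2 * k + 1 = p ^ 2) : (Nat.card G).factorization p = 2 := by
  have k3 := h.k3
  have hpd : p ∣ 2 * k + 1 := by rw [hpk]; exact dvd_pow_self _ two_ne_zero
  have h1 : ¬ p ∣ 2 * k * (k + 1) := by
    intro hd
    rcases (Nat.Prime.dvd_mul hp).1 hd with h1 | h1
    · have h4 := (Nat.dvd_add_right h1).1 hpd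
      exact hp.one_lt.ne' (Nat.dvd_one.1 h4)
    · have h2 : p ∣ 2 * (k + 1) := h1.mul_left 2
      have h3 : 2 * (k + 1) = (2 * k + 1) + 1 := by ring
      rw [h3] at h2
      have h4 := (Nat.dvd_add_right hpd).1 h2
      exact hp.one_lt.ne' (Nat.dvd_one.1 h4)
  rw [h.card, hpk, Nat.factorization_mul (by positivity) (pow_ne_zero _ hp.ne_zero), Finsupp.add_apply,
    Nat.factorization_eq_zero_of_not_dvd h1, hp.factorization_pow, Finsupp.single_eq_same]

theorem Pat.card_syl (h : Pat G k) (hp : p.Prime) (hpk : 2 * k + 1 = p ^ 2) (P : Sylow p G) :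
    Nat.card P = p ^ 2 := by
  haveI := Fact.mk hp
  rw [P.card_eq_multiplicity, h.fact hp hpk]

theorem Pat.syl_comm (h : Pat G k) (hp : p.Prime) (hpk : 2 * k + 1 = p ^ 2) (P : Sylow p G) :
    ∀ x ∈ P, ∀ y ∈ P, y * x = x * y := by
  haveI := Fact.mk hp
  intro x hx y hy
  have h1 := IsPGroup.commutative_of_card_eq_prime_sq (p := p) (G := (P : Subgroup G)) (h.card_syl hp hpk P)
    ⟨y, hy⟩ ⟨x, hx⟩
  exact congrArg Subtype.val h1

/-- elements of order not divisible by another prime are `p`-elements -/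
theorem ppow_of {g : G} (hp : p.Prime) (hg : ∀ r : ℕ, r.Prime → r ∣ orderOf g → r = p) : ∃ n, orderOf g = p ^ n :=
  ⟨_, Nat.eq_prime_pow_of_unique_prime_dvd (orderOf_pos g).ne' (fun {d} hd hdg => hg d hd hdg)⟩

theorem Pat.cent_eq (h : Pat G k) (hp : p.Prime) (hp5 : 5 ≤ p) (hpk : 2 * k + 1 = p ^ 2) {P : Sylow p G} {x : G}
    (hx : x ∈ P) (hx1 : x ≠ 1) : Subgroup.centralizer ({x} : Set G) = P := by
  haveI := Fact.mk hp
  have hxp : p ∣ orderOf x := by
    obtain ⟨n, hn⟩ := (IsPGroup.iff_orderOf.1 P.isPGroup') ⟨x, hx⟩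
    rw [Subgroup.orderOf_mk] at hn
    rcases Nat.eq_zero_or_pos n with h0 | h0
    · rw [h0, pow_zero, orderOf_eq_one_iff] at hn
      exact absurd hn hx1
    · rw [hn]; exact dvd_pow_self _ h0.ne'
  obtain ⟨n, hn⟩ := (IsPGroup.iff_orderOf.1 P.isPGroup') ⟨x, hx⟩
  rw [Subgroup.orderOf_mk] at hn
  have hpg : IsPGroup p (Subgroup.centralizer ({x} : Set G)) := by
    rw [IsPGroup.iff_orderOf]
    intro y
    rw [← Subgroup.orderOf_coe]
    apply ppow_of hp
    intro r hr hry
    by_contra hrp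
    -- an element of order `r` commuting with `x`
    set y' : G := (y : G) ^ (orderOf (y : G) / r) with hy'
    have ho : orderOf y' = r := by
      rw [hy']; exact orderOf_pow_orderOf_div (orderOf_pos _).ne' hry
    have hc : Commute x y' := by
      have h1 := Subgroup.mem_centralizer_singleton_iff.1 y.2
      exact (Commute.pow_right (show Commute x (y : G) from h1.symm) _)
    have hcop : (orderOf x).Coprime (orderOf y') := by
      rw [ho, hn]
      exact Nat.Coprime.pow_left _ ((Nat.coprime_primes hp hr).2 (Ne.symm hrp))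
    have hm := hc.orderOf_mul_eq_mul_orderOf_of_coprime hcop
    refine h.not_both hp hp5 hpk (g := x * y') hr hrp ?_ ?_
    · rw [hm, ho]; exact dvd_mul_left _ _
    · rw [hm]; exact hxp.mul_right _
  refine P.is_maximal' hpg ?_
  intro y hy
  rw [Subgroup.mem_centralizer_singleton_iff]
  exact h.syl_comm hp hpk P x hx y hy

/-- number of `p`-elements -/
theorem Pat.count (h : Pat G k) (hp : p.Prime) (hp5 : 5 ≤ p) (hpk : 2 * k + 1 = p ^ 2) :
    Nat.card {g : G // (∃ n, orderOf g = p ^ n) ∧ g ≠ 1} + 1 = (2 * k + 1) ^ 2 := by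
  classical
  have := Fintype.ofFinite G
  obtain ⟨S, hS⟩ := exists_of_cnt (G := G) (d := 2 * k + 1) (by rw [h.st]; exact one_ne_zero)
  have h1 := classInner_irr_self S
  unfold classInner at h1
  have hG0 : (Nat.card G : ℂ) ≠ 0 := by exact_mod_cast Nat.card_pos.ne'
  rw [inv_mul_eq_iff_eq_mul₀ hG0, mul_one] at h1
  have hval : ∀ g : G, (S : G → ℂ) g * conj ((S : G → ℂ) g) =
      (if g = 1 then ((2 * k + 1 : ℕ) : ℂ) ^ 2 else 0) + (if (∃ n, orderOf g = p ^ n) then 0 else 1) := by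
    intro g
    by_cases hg : g = 1
    · rw [if_pos hg, if_pos ⟨0, by rw [hg, orderOf_one, pow_zero]⟩, hg, deg_spec, hS, add_zero]
      rw [Complex.conj_natCast, sq]
    · by_cases hgp : ∃ n, orderOf g = p ^ n
      · rw [if_neg hg, if_pos hgp]
        obtain ⟨n, hn⟩ := hgp
        have hpg : p ∣ orderOf g := by
          rcases Nat.eq_zero_or_pos n with h0 | h0
          · rw [h0, pow_zero, orderOf_eq_one_iff] at hn
            exact absurd hn hg
          · rw [hn]; exact dvd_pow_self _ h0.ne'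
        rw [h.van_p hp hpk hS hpg]; simp
      · rw [if_neg hg, if_neg hgp]
        obtain ⟨r, hr, hrg, hrp⟩ : ∃ r : ℕ, r.Prime ∧ r ∣ orderOf g ∧ r ≠ p := by
          by_contra hcon
          push Not at hcon
          exact hgp (ppow_of hp hcon)
        rcases h.pm hp hp5 hpk hS hr hrp hrg with h2 | h2 <;> rw [h2] <;> simp
  rw [Finset.sum_congr rfl fun g _ => hval g, Finset.sum_add_distrib, Finset.sum_ite_eq' Finset.univ (1 : G),
    if_pos (Finset.mem_univ _)] at h1
  have h2 : ∑ g : G, (if (∃ n, orderOf g = p ^ n) then (0 : ℂ) else 1) =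
      ((Finset.univ.filter (fun g : G => ¬ ∃ n, orderOf g = p ^ n)).card : ℂ) := by
    rw [Finset.card_filter]
    push_cast
    exact Finset.sum_congr rfl fun g _ => by
      by_cases hg : ∃ n, orderOf g = p ^ n
      · rw [if_pos hg, if_neg (not_not.2 hg)]
      · rw [if_neg hg, if_pos hg]
  rw [h2] at h1
  have h3 : (2 * k + 1) ^ 2 + (Finset.univ.filter (fun g : G => ¬ ∃ n, orderOf g = p ^ n)).card = Nat.card G := by
    exact_mod_cast h1
  have h4 := Finset.card_filter_add_card_filter_not (s := (Finset.univ : Finset G)) (fun g : G => ∃ n, orderOf g = p ^ n)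
  rw [Finset.card_univ, ← Nat.card_eq_fintype_card] at h4
  have h5 : (Finset.univ.filter (fun g : G => ∃ n, orderOf g = p ^ n)).card = (2 * k + 1) ^ 2 := by omega
  have h6 : Nat.card {g : G // (∃ n, orderOf g = p ^ n) ∧ g ≠ 1} + 1 = (Finset.univ.filter (fun g : G => ∃ n, orderOf g = p ^ n)).card := by
    rw [Nat.card_eq_fintype_card, Fintype.card_subtype]
    have h7 : Finset.univ.filter (fun g : G => ∃ n, orderOf g = p ^ n) =
        insert 1 (Finset.univ.filter (fun g : G => (∃ n, orderOf g = p ^ n) ∧ g ≠ 1)) := by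
      ext g
      simp only [Finset.mem_filter, Finset.mem_univ, true_and, Finset.mem_insert]
      constructor
      · intro hg
        by_cases h8 : g = 1
        · exact Or.inl h8
        · exact Or.inr ⟨hg, h8⟩
      · rintro (rfl | ⟨hg, -⟩)
        · exact ⟨0, by rw [orderOf_one, pow_zero]⟩
        · exact hg
    rw [h7, Finset.card_insert_of_notMem (by simp)]
  rw [h6, h5]

theorem Pat.card_points (h : Pat G k) (hp : p.Prime) (hp5 : 5 ≤ p) (hpk : 2 * k + 1 = p ^ 2) :
    Nat.card (Sylow p G) = (2 * k + 1) + 1 := by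
  classical
  haveI := Fact.mk hp
  have k3 := h.k3
  have : Fintype (Sylow p G) := Fintype.ofFinite _
  have hw : ∀ P : Sylow p G, Nat.card {x : G // x ∈ (P : Subgroup G) ∧ x ≠ 1} = 2 * k := by
    intro P
    have h1 := JW.card_ne_one (P : Subgroup G)
    have h2 := h.card_syl hp hpk P
    rw [← hpk] at h2
    have h3 : Nat.card (P : Subgroup G) = 2 * k + 1 := h2
    omega
  let f : (Σ P : Sylow p G, {x : G // x ∈ (P : Subgroup G) ∧ x ≠ 1}) → {g : G // (∃ n, orderOf g = p ^ n) ∧ g ≠ 1} :=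
    fun z => ⟨z.2.1, by
      obtain ⟨n, hn⟩ := (IsPGroup.iff_orderOf.1 z.1.isPGroup') ⟨z.2.1, z.2.2.1⟩
      rw [Subgroup.orderOf_mk] at hn
      exact ⟨n, hn⟩, z.2.2.2⟩
  have hf : Function.Bijective f := by
    constructor
    · rintro ⟨P, x, hx, hx1⟩ ⟨Q, y, hy, hy1⟩ hxy
      have h1 : x = y := congrArg Subtype.val hxy
      subst h1
      have h2 : P = Q := by
        apply Sylow.ext
        rw [← h.cent_eq hp hp5 hpk hx hx1, ← h.cent_eq hp hp5 hpk hy hx1]
      subst h2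
      rfl
    · rintro ⟨g, ⟨n, hn⟩, hg⟩
      have h1 : IsPGroup p (Subgroup.zpowers g) := by
        apply IsPGroup.of_card (n := n)
        rw [Nat.card_zpowers, hn]
      obtain ⟨P, hP⟩ := h1.exists_le_sylow
      exact ⟨⟨P, g, hP (Subgroup.mem_zpowers g), hg⟩, rfl⟩
  have h1 := Nat.card_congr (Equiv.ofBijective f hf)
  rw [Nat.card_sigma, Finset.sum_congr rfl fun P _ => hw P, Finset.sum_const, smul_eq_mul, Finset.card_univ,
    ← Nat.card_eq_fintype_card] at h1
  have h2 := h.count hp hp5 hpk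
  rw [← h1] at h2
  have h3 : Nat.card (Sylow p G) * (2 * k) = (2 * k + 2) * (2 * k) := by
    have h4 : (2 * k + 1) ^ 2 = (2 * k + 2) * (2 * k) + 1 := by ring
    omega
  have := Nat.eq_of_mul_eq_mul_right (by omega) h3
  omega

theorem Pat.hyp (h : Pat G k) (hp : p.Prime) (hp5 : 5 ≤ p) (hpk : 2 * k + 1 = p ^ 2) : TIS.Hyp G p (2 * k + 1) where
  pp := hp
  q5 := by have := h.k3; omega
  comm := h.syl_comm hp hpk
  cent_eq := fun hx hx1 => h.cent_eq hp hp5 hpk hx hx1
  card_syl := fun P => by rw [hpk]; exact h.card_syl hp hpk P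
  card_points := fun _ => h.card_points hp hp5 hpk
  cardG := ⟨k, rfl, by rw [h.card]; ring⟩
  simple := h.simple

theorem Pat.psl (h : Pat G k) (hp : p.Prime) (hp5 : 5 ≤ p) (hpk : 2 * k + 1 = p ^ 2) {F : Type v} [Field F] [Fintype F]
    (hF : Fintype.card F = 2 * k + 1) : Nonempty (G ≃* Matrix.ProjectiveSpecialLinearGroup (Fin 2) F) := by
  obtain ⟨K, iK, iKt, hK, ⟨e⟩⟩ := (h.hyp hp hp5 hpk).psl
  rw [Nat.card_eq_fintype_card] at hK
  exact ⟨e.trans (ClassBase.pslCongr (FiniteField.ringEquivOfCardEq (hK.trans hF.symm)))⟩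

end

end Cfsg.Agent.H2.PP
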