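import Cfsg.Agent.H2.PP.Simple
import Cfsg.Agent.Char.DefectZero
import Cfsg.Agent.Char.Galois
import Cfsg.Agent.Char.BurnsideClass
import Cfsg.Agent.CharBase.Column
import Cfsg.Agent.CharBase.Central
import Cfsg.Agent.H35.KegelA

/-! values of the character of degree q (helper2) -/

set_option autoImplicit false
set_option linter.unusedSectionVars false

namespace Cfsg.Agent.H2.PP

open Cfsg Cfsg.Agent.CharBase Cfsg.Agent.H75
open scoped ComplexConjugate

universe u v

section
variable {G : Type u} [Group G] [Finite G]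

theorem eq_of_cnt_one {d : ℕ} (h : cnt G d = 1) {χ ψ : IrrCharacter G} (hχ : deg χ = d) (hψ : deg ψ = d) : χ = ψ := by
  have h1 := (Nat.card_eq_one_iff_unique.1 h).1
  have h2 : (⟨χ, hχ⟩ : {χ : IrrCharacter G // deg χ = d}) = ⟨ψ, hψ⟩ := Subsingleton.elim _ _
  exact congrArg Subtype.val h2

theorem deg_eq_of {χ : IrrCharacter G} {n : ℕ} (h : (χ : G → ℂ) 1 = n) : deg χ = n := by
  rw [deg_spec] at h
  exact_mod_cast h

theorem int_of_unique {d : ℕ} (h : cnt G d = 1) {χ : IrrCharacter G} (hχ : deg χ = d) (g : G) :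
    ∃ m : ℤ, (χ : G → ℂ) g = m := by
  refine Char.exists_int_of_fixed (n := Nat.card G) Nat.card_pos.ne' _
    (Char.char_mem_closure (CharBase.irr_isCharacter χ) g dvd_rfl) ?_
  intro k σ hk hσ
  rw [Char.map_char_eq (CharBase.irr_isCharacter χ) g (orderOf_dvd_natCard g) σ hσ]
  let ψ : IrrCharacter G := ⟨_, Char.isIrrCharacter_pow χ.2 hk⟩
  have h2 : deg ψ = d := by
    apply deg_eq_of
    change (χ : G → ℂ) (1 ^ k) = _
    rw [one_pow, deg_spec, hχ]
  have h3 := eq_of_cnt_one h h2 hχ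
  exact congrFun (congrArg Subtype.val h3) g

theorem norm_lt [IsSimpleGroup G] (hna : ¬ ∀ a b : G, a * b = b * a) {χ : IrrCharacter G} (hχ : χ ≠ oneIrr G) {g : G}
    (hg : g ≠ 1) : ‖(χ : G → ℂ) g‖ < deg χ := by
  obtain ⟨n, ρ, hρ, hρχ⟩ := χ.2
  have hne : ρ.character ≠ (fun _ => 1) := by
    intro h
    apply hχ
    apply Subtype.ext
    rw [← hρχ, h]
    rfl
  have hdeg : deg χ = n := by
    apply deg_eq_of
    rw [← hρχ, Representation.char_one]; simp
  have h1 := Char.rep_norm_character_le ρ g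
  rw [Module.finrank_fin_fun] at h1
  rw [hdeg, ← hρχ]
  refine lt_of_le_of_ne h1 fun h2 => ?_
  exact H35.Kg.no_scalar hna ρ hρ hne hg ((Char.rep_norm_character_eq_iff ρ g).mp (by rw [Module.finrank_fin_fun]; exact h2))

theorem van {r : ℕ} (hr : r.Prime) {A B : ℕ} (hA : A ≠ 0) (hcard : Nat.card G = A * B) (hrB : ¬ r ∣ B) {χ : IrrCharacter G}
    (hχ : A ∣ deg χ) {g : G} (hg : r ∣ orderOf g) : (χ : G → ℂ) g = 0 := by
  have := Fintype.ofFinite G
  refine Char.DZ.eq_zero_of_defect_zero r (A.factorization r) hr ?_ χ.2 (deg_spec χ) ((Nat.ordProj_dvd A r).trans hχ) g hg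
  intro h
  rw [hcard] at h
  have h1 : Nat.Coprime (r ^ (A.factorization r + 1)) B := Nat.Coprime.pow_left _ ((Nat.Prime.coprime_iff_not_dvd hr).2 hrB)
  have h2 := h1.dvd_of_dvd_mul_right h
  have := (hr.pow_dvd_iff_le_factorization hA).1 h2
  omega

end

section
variable {G : Type u} [Group G] [Finite G] {k : ℕ}

open Classical in
theorem Pat.split [Fintype (IrrCharacter G)] (h : Pat G k) {S : IrrCharacter G} (hS : deg S = 2 * k + 1) {R : Type*}
    [AddCommMonoid R] (f : IrrCharacter G → R) :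
    ∑ χ, f χ = f (oneIrr G) + f S + ∑ χ ∈ Finset.univ.filter (fun χ : IrrCharacter G => deg χ = k + 1 ∨ deg χ = 2 * (k + 1)), f χ +
      ∑ χ ∈ Finset.univ.filter (fun χ : IrrCharacter G => deg χ = 2 * k), f χ := by
  have k3 := h.k3
  have hone : deg (oneIrr G) = 1 := deg_eq_of (by rw [oneIrr_apply]; norm_num)
  have h1 : ∀ χ : IrrCharacter G, f χ = (if χ = oneIrr G then f χ else 0) + (if χ = S then f χ else 0) +
      (if deg χ = k + 1 ∨ deg χ = 2 * (k + 1) then f χ else 0) + (if deg χ = 2 * k then f χ else 0) := by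
    intro χ
    rcases h.five χ with h2 | h2 | h2 | h2 | h2
    · have h3 : χ = oneIrr G := eq_of_cnt_one h.one h2 hone
      have h4 : χ ≠ S := fun h => by rw [h, hS] at h2; omega
      rw [if_pos h3, if_neg h4, if_neg (by omega), if_neg (by omega)]; simp
    · have h3 : χ = S := eq_of_cnt_one h.st h2 hS
      have h4 : χ ≠ oneIrr G := fun h => by rw [h, hone] at h2; omega
      rw [if_neg h4, if_pos h3, if_neg (by omega), if_neg (by omega)]; simp
    · have h3 : χ ≠ oneIrr G := fun h => by rw [h, hone] at h2; omega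
      have h4 : χ ≠ S := fun h => by rw [h, hS] at h2; omega
      rw [if_neg h3, if_neg h4, if_pos (Or.inl h2), if_neg (by omega)]; simp
    · have h3 : χ ≠ oneIrr G := fun h => by rw [h, hone] at h2; omega
      have h4 : χ ≠ S := fun h => by rw [h, hS] at h2; omega
      rw [if_neg h3, if_neg h4, if_pos (Or.inr h2), if_neg (by omega)]; simp
    · have h3 : χ ≠ oneIrr G := fun h => by rw [h, hone] at h2; omega
      have h4 : χ ≠ S := fun h => by rw [h, hS] at h2; omega
      rw [if_neg h3, if_neg h4, if_neg (by omega), if_pos h2]; simp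
  rw [Finset.sum_congr rfl fun χ _ => h1 χ, Finset.sum_add_distrib, Finset.sum_add_distrib, Finset.sum_add_distrib,
    Finset.sum_ite_eq' Finset.univ (oneIrr G), if_pos (Finset.mem_univ _),
    Finset.sum_ite_eq' Finset.univ S, if_pos (Finset.mem_univ _), ← Finset.sum_filter, ← Finset.sum_filter]

/-- the regular character -/
theorem Pat.reg [Fintype (IrrCharacter G)] (h : Pat G k) {g : G} (hg : g ≠ 1) :
    ∑ χ : IrrCharacter G, (deg χ : ℂ) * (χ : G → ℂ) g = 0 := by
  classical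
  have h1 := sum_degree_mul (G := G) g
  rw [if_neg hg] at h1
  rw [← h1]
  exact Finset.sum_congr rfl fun χ _ => by rw [deg_spec]

theorem Pat.cent [Fintype (IrrCharacter G)] (h : Pat G k) (g : G) :
    ∑ χ : IrrCharacter G, ‖(χ : G → ℂ) g‖ ^ 2 = (Nat.card (Subgroup.centralizer ({g} : Set G)) : ℝ) := by
  have h1 := column_orthogonality_of_isConj (IsConj.refl g)
  have h2 : ∑ χ : IrrCharacter G, (χ : G → ℂ) g * conj ((χ : G → ℂ) g) =
      ((∑ χ : IrrCharacter G, ‖(χ : G → ℂ) g‖ ^ 2 : ℝ) : ℂ) := by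
    push_cast
    exact Finset.sum_congr rfl fun χ _ => by rw [Complex.mul_conj, Complex.normSq_eq_norm_sq]; push_cast; rfl
  rw [h2] at h1
  exact_mod_cast h1

/-- the class size times `m` is divisible by the degree -/
theorem Pat.dvd_class {S : IrrCharacter G} {g : G} {m : ℤ} (hm : (S : G → ℂ) g = m) :
    (deg S : ℤ) ∣ ((Subgroup.centralizer ({g} : Set G)).index : ℤ) * m := by
  have := Fintype.ofFinite G
  apply Char.DZ.int_dvd_of_isIntegral_div (deg_pos S).ne'
  have h1 := isIntegral_centralChar S.2 g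
  rw [hm, deg_spec] at h1
  push_cast
  exact h1

theorem Pat.S_ne (h : Pat G k) {S : IrrCharacter G} (hS : deg S = 2 * k + 1) : S ≠ oneIrr G := by
  intro h1
  have hone : deg (oneIrr G) = 1 := deg_eq_of (by rw [oneIrr_apply]; norm_num)
  have := h.k3
  rw [h1, hone] at hS
  omega

theorem Pat.abs_lt (h : Pat G k) {S : IrrCharacter G} (hS : deg S = 2 * k + 1) {g : G} (hg : g ≠ 1) {m : ℤ}
    (hm : (S : G → ℂ) g = m) : |m| < 2 * k + 1 := by
  haveI := h.simple
  have h1 := norm_lt h.noncomm (h.S_ne hS) hg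
  rw [hm, hS, Complex.norm_intCast] at h1
  exact_mod_cast h1

theorem Pat.valE (h : Pat G k) {S : IrrCharacter G} (hS : deg S = 2 * k + 1) {g : G} {r : ℕ} (hr : r.Prime)
    (hrk : r ∣ k + 1) (hg : r ∣ orderOf g) : (S : G → ℂ) g = -1 := by
  classical
  have := Fintype.ofFinite (IrrCharacter G)
  have k3 := h.k3
  have hg1 : g ≠ 1 := by
    rintro rfl
    rw [orderOf_one, Nat.dvd_one] at hg
    exact hr.one_lt.ne' hg
  obtain ⟨m, hm⟩ := int_of_unique h.st hS g
  have habs := h.abs_lt hS hg1 hm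
  have hv : ∀ χ ∈ Finset.univ.filter (fun χ : IrrCharacter G => deg χ = k + 1 ∨ deg χ = 2 * (k + 1)), (χ : G → ℂ) g = 0 := by
    intro χ hχ
    refine van hr (A := k + 1) (B := 2 * k * (2 * k + 1)) (by omega) (by rw [h.card]; ring) ?_ ?_ hg
    · intro hd
      rcases (Nat.Prime.dvd_mul hr).1 hd with h1 | h1
      · have h2 : r ∣ 2 * (k + 1) := hrk.mul_left 2
        have h3 : 2 * (k + 1) = 2 * k + 2 := by ring
        rw [h3] at h2
        have h4 := (Nat.dvd_add_right h1).1 h2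
        have h5 : r = 2 := (Nat.prime_dvd_prime_iff_eq hr Nat.prime_two).1 h4
        rw [h5] at hrk
        obtain ⟨l, hl⟩ := h.k4
        omega
      · have h2 : r ∣ 2 * (k + 1) := hrk.mul_left 2
        have h3 : 2 * (k + 1) = (2 * k + 1) + 1 := by ring
        rw [h3] at h2
        have h4 := (Nat.dvd_add_right h1).1 h2
        exact hr.one_lt.ne' (Nat.dvd_one.1 h4)
    · rcases (Finset.mem_filter.1 hχ).2 with h1 | h1
      · rw [h1]
      · rw [h1]; exact dvd_mul_left _ _
  have hreg := h.reg hg1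
  rw [h.split hS, Finset.sum_eq_zero (fun χ hχ => by rw [hv χ hχ, mul_zero]), add_zero, oneIrr_apply, hS, hm] at hreg
  have hone : deg (oneIrr G) = 1 := deg_eq_of (by rw [oneIrr_apply]; norm_num)
  rw [hone] at hreg
  set y := ∑ χ ∈ Finset.univ.filter (fun χ : IrrCharacter G => deg χ = 2 * k), (χ : G → ℂ) g with hy
  have hy1 : ∑ χ ∈ Finset.univ.filter (fun χ : IrrCharacter G => deg χ = 2 * k), (deg χ : ℂ) * (χ : G → ℂ) g = (2 * k : ℕ) * y := by
    rw [hy, Finset.mul_sum]
    exact Finset.sum_congr rfl fun χ hχ => by rw [(Finset.mem_filter.1 hχ).2]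
  rw [hy1] at hreg
  have hyint : IsIntegral ℤ y := IsIntegral.sum _ fun χ _ => irr_isIntegral χ g
  have hd : ((2 * k : ℕ) : ℤ) ∣ 1 + (2 * k + 1) * m := by
    apply Char.DZ.int_dvd_of_isIntegral_div (by omega)
    have h1 : (((1 + (2 * k + 1) * m : ℤ)) : ℂ) / ((2 * k : ℕ) : ℂ) = -y := by
      have h2 : ((2 * k : ℕ) : ℂ) ≠ 0 := by exact_mod_cast (by omega : 2 * k ≠ 0)
      rw [div_eq_iff h2]
      push_cast at hreg ⊢
      linear_combination hreg
    rw [h1]
    exact hyint.neg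
  obtain ⟨t, ht⟩ := hd
  push_cast at ht
  rw [_root_.abs_lt] at habs
  -- `m = -1 + 2k t'`
  have hm1 : m = -1 + 2 * k * (t - m) := by linear_combination ht
  have ht1 : t - m < 2 := by
    by_contra hcon
    push Not at hcon
    have : (2 * (k : ℤ)) * 2 ≤ 2 * k * (t - m) := mul_le_mul_of_nonneg_left hcon (by positivity)
    omega
  have ht2 : -1 < t - m := by
    by_contra hcon
    push Not at hcon
    have : (2 * (k : ℤ)) * (t - m) ≤ 2 * k * (-1) := mul_le_mul_of_nonneg_left hcon (by positivity)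
    omega
  rcases (show t - m = 0 ∨ t - m = 1 by omega) with h0 | h1
  · rw [hm, hm1, h0]; push_cast; ring
  · exfalso
    rw [h1, mul_one] at hm1
    have hdc := Pat.dvd_class hm
    rw [hS] at hdc
    set n := (Subgroup.centralizer ({g} : Set G)).index with hn
    have hcop : IsCoprime ((2 * k + 1 : ℕ) : ℤ) m := by
      rw [hm1]
      refine ⟨k, -(k + 1), ?_⟩
      push_cast; ring
    have hdn : ((2 * k + 1 : ℕ) : ℤ) ∣ (n : ℤ) := hcop.dvd_of_dvd_mul_right hdc
    have hdn' : 2 * k + 1 ∣ n := by exact_mod_cast hdn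
    have hn0 : 0 < n := Nat.pos_of_ne_zero Subgroup.index_ne_zero_of_finite
    have hnle := Nat.le_of_dvd hn0 hdn'
    have hcn : Nat.card (Subgroup.centralizer ({g} : Set G)) * n = Nat.card G := Subgroup.card_mul_index _
    have hcle : ((2 * k - 1 : ℝ)) ^ 2 ≤ (Nat.card (Subgroup.centralizer ({g} : Set G)) : ℝ) := by
      rw [← h.cent g]
      have h3 : ‖(S : G → ℂ) g‖ ^ 2 ≤ ∑ χ : IrrCharacter G, ‖(χ : G → ℂ) g‖ ^ 2 :=
        Finset.single_le_sum (f := fun χ : IrrCharacter G => ‖(χ : G → ℂ) g‖ ^ 2) (fun χ _ => by positivity) (Finset.mem_univ S)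
      rw [hm, Complex.norm_intCast, sq_abs, hm1] at h3
      refine le_trans (le_of_eq ?_) h3
      push_cast; ring
    have hfin : ((2 * k - 1 : ℝ)) ^ 2 * (2 * k + 1) ≤ 2 * k * (k + 1) * (2 * k + 1) := by
      have h3 : (Nat.card (Subgroup.centralizer ({g} : Set G)) : ℝ) * n = 2 * k * (k + 1) * (2 * k + 1) := by
        have h4 : ((Nat.card (Subgroup.centralizer ({g} : Set G)) * n : ℕ) : ℝ) = ((2 * k * (k + 1) * (2 * k + 1) : ℕ) : ℝ) := by
          rw [hcn, h.card]
        push_cast at h4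
        exact h4
      rw [← h3]
      have h5 : ((2 * k + 1 : ℕ) : ℝ) ≤ n := by exact_mod_cast hnle
      push_cast at h5
      exact mul_le_mul hcle h5 (by positivity) (by positivity)
    have hk : (4 : ℝ) ≤ k := by exact_mod_cast k3
    have h6 : ((2 * k - 1 : ℝ)) ^ 2 ≤ 2 * k * (k + 1) := le_of_mul_le_mul_right hfin (by positivity)
    nlinarith

/-- `2k+1 = p^2`, `p ≥ 5` -/
theorem Pat.valT (h : Pat G k) {p : ℕ} (hp : p.Prime) (hp5 : 5 ≤ p) (hpk : 2 * k + 1 = p ^ 2) {S : IrrCharacter G}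
    (hS : deg S = 2 * k + 1) {g : G} {r : ℕ} (hr : r.Prime)
    (hrk : r ∣ 2 * k) (hg : r ∣ orderOf g) : (S : G → ℂ) g = 1 := by
  classical
  have := Fintype.ofFinite (IrrCharacter G)
  have k3 := h.k3
  have hg1 : g ≠ 1 := by
    rintro rfl
    rw [orderOf_one, Nat.dvd_one] at hg
    exact hr.one_lt.ne' hg
  obtain ⟨m, hm⟩ := int_of_unique h.st hS g
  have habs := h.abs_lt hS hg1 hm
  have hone : deg (oneIrr G) = 1 := deg_eq_of (by rw [oneIrr_apply]; norm_num)
  have hv : ∀ χ ∈ Finset.univ.filter (fun χ : IrrCharacter G => deg χ = 2 * k), (χ : G → ℂ) g = 0 := by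
    intro χ hχ
    refine van hr (A := 2 * k) (B := (k + 1) * (2 * k + 1)) (by omega) (by rw [h.card]; ring) ?_ ?_ hg
    · intro hd
      rcases (Nat.Prime.dvd_mul hr).1 hd with h1 | h1
      · have h2 : r ∣ 2 * (k + 1) := h1.mul_left 2
        have h3 : 2 * (k + 1) = 2 * k + 2 := by ring
        rw [h3] at h2
        have h4 := (Nat.dvd_add_right hrk).1 h2
        have h5 : r = 2 := (Nat.prime_dvd_prime_iff_eq hr Nat.prime_two).1 h4
        rw [h5] at h1
        obtain ⟨l, hl⟩ := h.k4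
        omega
      · have h4 := (Nat.dvd_add_right hrk).1 h1
        exact hr.one_lt.ne' (Nat.dvd_one.1 h4)
    · rw [(Finset.mem_filter.1 hχ).2]
  set E := Finset.univ.filter (fun χ : IrrCharacter G => deg χ = k + 1 ∨ deg χ = 2 * (k + 1)) with hE
  have hreg := h.reg hg1
  rw [h.split hS, Finset.sum_eq_zero (s := Finset.univ.filter (fun χ : IrrCharacter G => deg χ = 2 * k))
    (fun χ hχ => by rw [hv χ hχ, mul_zero]), add_zero, oneIrr_apply, hS, hm, hone] at hreg
  -- weights
  let w : IrrCharacter G → ℕ := fun χ => deg χ / (k + 1)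
  have hw : ∀ χ ∈ E, deg χ = (k + 1) * w χ := by
    intro χ hχ
    have h1 : k + 1 ∣ deg χ := by
      rcases (Finset.mem_filter.1 hχ).2 with h1 | h1
      · rw [h1]
      · rw [h1]; exact dvd_mul_left _ _
    exact (Nat.mul_div_cancel' h1).symm
  set y := ∑ χ ∈ E, (w χ : ℂ) * (χ : G → ℂ) g with hy
  have hy1 : ∑ χ ∈ E, (deg χ : ℂ) * (χ : G → ℂ) g = (k + 1 : ℕ) * y := by
    rw [hy, Finset.mul_sum]
    exact Finset.sum_congr rfl fun χ hχ => by
      have h1 : (deg χ : ℂ) = ((k + 1 : ℕ) : ℂ) * (w χ : ℂ) := by rw [hw χ hχ]; push_cast; ring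
      rw [h1]; ring
  rw [hy1] at hreg
  have hyint : IsIntegral ℤ y := IsIntegral.sum _ fun χ _ => (isIntegral_algebraMap (x := (w χ : ℤ))).mul (irr_isIntegral χ g)
  have hd : ((k + 1 : ℕ) : ℤ) ∣ 1 + (2 * k + 1) * m := by
    apply Char.DZ.int_dvd_of_isIntegral_div (by omega)
    have h1 : (((1 + (2 * k + 1) * m : ℤ)) : ℂ) / ((k + 1 : ℕ) : ℂ) = -y := by
      have h2 : ((k + 1 : ℕ) : ℂ) ≠ 0 := by exact_mod_cast (by omega : k + 1 ≠ 0)
      rw [div_eq_iff h2]
      push_cast at hreg ⊢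
      linear_combination hreg
    rw [h1]
    exact hyint.neg
  obtain ⟨t, ht⟩ := hd
  push_cast at ht
  rw [_root_.abs_lt] at habs
  have hm1 : m = 1 + (k + 1) * (2 * m - t) := by linear_combination -ht
  set j : ℤ := 2 * m - t with hj
  have ht1 : j < 2 := by
    by_contra hcon
    push Not at hcon
    have : ((k : ℤ) + 1) * 2 ≤ (k + 1) * j := mul_le_mul_of_nonneg_left hcon (by positivity)
    omega
  have ht2 : -2 < j := by
    by_contra hcon
    push Not at hcon
    have : ((k : ℤ) + 1) * j ≤ (k + 1) * (-2) := mul_le_mul_of_nonneg_left hcon (by positivity)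
    omega
  -- class size
  have hdc := Pat.dvd_class hm
  rw [hS] at hdc
  set n := (Subgroup.centralizer ({g} : Set G)).index with hn
  set c := Nat.card (Subgroup.centralizer ({g} : Set G)) with hc
  have hn0 : 0 < n := Nat.pos_of_ne_zero Subgroup.index_ne_zero_of_finite
  have hcn : c * n = Nat.card G := Subgroup.card_mul_index _
  have hne : ∀ l : ℕ, n ≠ p ^ l := by
    intro l hl
    haveI := h.simple
    exact h.not_prime (Char.prime_card_of_simple_of_prime_power_class p l hp g hg1 hl)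
  have hk : (4 : ℝ) ≤ k := by exact_mod_cast k3
  -- once `q ∣ n` and `c` is at least `(k+1)^2`-ish we are done
  have hend : IsCoprime ((2 * k + 1 : ℕ) : ℤ) m → ((k : ℝ) + 1) ^ 2 ≤ c → False := by
    intro hcop hcge
    have hdn : ((2 * k + 1 : ℕ) : ℤ) ∣ (n : ℤ) := hcop.dvd_of_dvd_mul_right hdc
    have hdn' : 2 * k + 1 ∣ n := by exact_mod_cast hdn
    obtain ⟨n', hn'⟩ := hdn'
    have h1 : c * n' = 2 * k * (k + 1) := by
      rw [hn', h.card] at hcn
      apply Nat.eq_of_mul_eq_mul_left (show 0 < 2 * k + 1 by omega)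
      rw [← mul_assoc, mul_comm (2 * k + 1) c, mul_assoc, hcn]; ring
    have h2 : (c : ℝ) * n' = 2 * k * (k + 1) := by exact_mod_cast h1
    have h3 : (n' : ℝ) < 2 := by
      by_contra hcon
      push Not at hcon
      have h4 : ((k : ℝ) + 1) ^ 2 * 2 ≤ c * n' := mul_le_mul hcge hcon (by positivity) (by positivity)
      nlinarith
    have h4 : n' < 2 := by exact_mod_cast h3
    have h5 : n' ≠ 0 := by rintro rfl; omega
    have h6 : n' = 1 := by omega
    apply hne 2
    rw [hn', h6, mul_one, hpk]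
  have hSle : (m : ℝ) ^ 2 ≤ c := by
    rw [hc, ← h.cent g]
    have h3 : ‖(S : G → ℂ) g‖ ^ 2 ≤ ∑ χ : IrrCharacter G, ‖(χ : G → ℂ) g‖ ^ 2 :=
      Finset.single_le_sum (f := fun χ : IrrCharacter G => ‖(χ : G → ℂ) g‖ ^ 2) (fun χ _ => by positivity) (Finset.mem_univ S)
    rw [hm, Complex.norm_intCast, sq_abs] at h3
    exact h3
  rcases (show j = 0 ∨ j = 1 ∨ j = -1 by omega) with h0 | h0 | h0
  · rw [hm, hm1, h0]; push_cast; ring
  · exfalso
    rw [h0] at hm1
    refine hend ?_ ?_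
    · rw [hpk]
      push_cast
      apply IsCoprime.pow_left
      rw [Prime.coprime_iff_not_dvd (Nat.prime_iff_prime_int.1 hp)]
      intro hd
      have h1 : (p : ℤ) ∣ 2 * k + 1 := by
        have : ((2 * k + 1 : ℕ) : ℤ) = (p : ℤ) ^ 2 := by exact_mod_cast hpk
        push_cast at this
        rw [this]; exact dvd_pow_self _ two_ne_zero
      have h2 : (p : ℤ) ∣ 3 := by
        have h3 : (3 : ℤ) = 2 * m - (2 * k + 1) := by rw [hm1]; ring
        rw [h3]
        exact dvd_sub (hd.mul_left 2) h1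
      have h3 : p ∣ 3 := by exact_mod_cast h2
      have := Nat.le_of_dvd (by norm_num) h3
      omega
    · refine le_trans ?_ hSle
      rw [hm1]
      push_cast
      nlinarith
  · exfalso
    rw [h0] at hm1
    have hmk : m = -k := by rw [hm1]; ring
    refine hend ?_ ?_
    · rw [hmk]
      refine ⟨1, 2, ?_⟩
      push_cast; ring
    · -- Cauchy-Schwarz
      set X := ∑ χ ∈ E, ‖(χ : G → ℂ) g‖ ^ 2 with hX
      have hcX : (c : ℝ) = 1 + (k : ℝ) ^ 2 + X := by
        rw [hc, ← h.cent g, h.split hS, Finset.sum_eq_zero (s := Finset.univ.filter (fun χ : IrrCharacter G => deg χ = 2 * k))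
          (fun χ hχ => by rw [hv χ hχ, norm_zero]; norm_num), add_zero, oneIrr_apply, hm, hmk]
        simp
        rfl
      have hdsum : (∑ χ ∈ E, (deg χ : ℝ) ^ 2) = (2 * k - 2) * (k + 1) ^ 2 := by
        have h1 := sum_deg_sq (G := G)
        rw [h.split hS, hone, hS, h.card] at h1
        have h2 : ∑ χ ∈ Finset.univ.filter (fun χ : IrrCharacter G => deg χ = 2 * k), deg χ ^ 2 = cnt G (2 * k) * (2 * k) ^ 2 := by
          have h3 : ∑ χ ∈ Finset.univ.filter (fun χ : IrrCharacter G => deg χ = 2 * k), deg χ ^ 2 =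
              ∑ χ ∈ Finset.univ.filter (fun χ : IrrCharacter G => deg χ = 2 * k), (2 * k) ^ 2 :=
            Finset.sum_congr rfl fun χ hχ => by rw [(Finset.mem_filter.1 hχ).2]
          rw [h3, Finset.sum_const, smul_eq_mul, cnt, Nat.card_eq_fintype_card, Fintype.card_subtype]
        rw [h2] at h1
        have h3 := h.arith.2.2
        have h4 : cnt G (2 * k) * (2 * k) ^ 2 = 2 * k * k ^ 2 := by
          calc cnt G (2 * k) * (2 * k) ^ 2 = (4 * cnt G (2 * k)) * k ^ 2 := by ring
            _ = 2 * k * k ^ 2 := by rw [h3]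
        rw [h4] at h1
        have h5 : ((1 ^ 2 + (2 * k + 1) ^ 2 + ∑ χ ∈ E, deg χ ^ 2 + 2 * k * k ^ 2 : ℕ) : ℝ) = ((2 * k * (k + 1) * (2 * k + 1) : ℕ) : ℝ) := by
          rw [← h1]
        push_cast at h5
        linear_combination h5
      have hnorm : ‖((k + 1 : ℕ) : ℂ) * y‖ = (2 * k - 1) * (k + 1) := by
        have h1 : ((k + 1 : ℕ) : ℂ) * y = (((2 * k - 1) * (k + 1) : ℝ) : ℂ) := by
          rw [hmk] at hreg
          push_cast at hreg ⊢
          linear_combination hreg
        rw [h1, Complex.norm_real, Real.norm_eq_abs, abs_of_nonneg]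
        exact mul_nonneg (by linarith) (by positivity)
      rw [← hy1] at hnorm
      have hle : (2 * k - 1) * (k + 1) ≤ ∑ χ ∈ E, (deg χ : ℝ) * ‖(χ : G → ℂ) g‖ := by
        rw [← hnorm]
        refine (norm_sum_le _ _).trans (le_of_eq (Finset.sum_congr rfl fun χ _ => ?_))
        rw [norm_mul, Complex.norm_natCast]
      have hcs := Finset.sum_mul_sq_le_sq_mul_sq E (fun χ => (deg χ : ℝ)) (fun χ => ‖(χ : G → ℂ) g‖)
      rw [hdsum, ← hX] at hcs
      have h1 : (((2 * k - 1) * (k + 1) : ℝ)) ^ 2 ≤ (2 * k - 2) * (k + 1) ^ 2 * X := by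
        refine le_trans ?_ hcs
        exact pow_le_pow_left₀ (mul_nonneg (by linarith) (by positivity)) hle 2
      have h2 : (2 * (k : ℝ) - 1) ^ 2 ≤ (2 * k - 2) * X := by
        have h3 : (2 * (k : ℝ) - 1) ^ 2 * (k + 1) ^ 2 ≤ (2 * k - 2) * X * (k + 1) ^ 2 := by
          calc (2 * (k : ℝ) - 1) ^ 2 * (k + 1) ^ 2 = ((2 * k - 1) * (k + 1)) ^ 2 := by ring
            _ ≤ _ := h1
            _ = (2 * k - 2) * X * (k + 1) ^ 2 := by ring
        exact le_of_mul_le_mul_right h3 (by positivity)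
      have h3 : 2 * (k : ℝ) ≤ X := by
        by_contra hcon
        push Not at hcon
        have h4 : (2 * k - 2) * X ≤ (2 * k - 2) * (2 * (k : ℝ)) := mul_le_mul_of_nonneg_left hcon.le (by linarith)
        nlinarith
      rw [hcX]
      nlinarith

end

end Cfsg.Agent.H2.PP
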